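import Mathlib
import Cfsg.Agent.H645.SymAlg
import Cfsg.Agent.H653.RankBound

/-!
# A block with `p`-regular rank one has a single simple module

* `exists_wedderburn` : a finite-dimensional algebra over an algebraically closed field has finitely
  many surjections onto matrix algebras, jointly surjective, with nilpotent common kernel;
* `exists_dat` : if `l(B) = 1`, there is a surjection `π : K[G] → M_n(K)` satisfying `SymAlg.Dat`
  for the idempotent of `B`, `K` the residue field at `M`;
* `exists_prim` : a primitive idempotent `e` of `K[G] b`.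
-/

set_option autoImplicit false
set_option linter.unusedSectionVars false

open Cfsg

namespace Cfsg.Agent.H645.OneSimple

open Module
open Cfsg.Agent.Blocks.Local Cfsg.Agent.H644 Cfsg.Agent.H645.SymAlg

section Wedderburn

variable {k : Type*} [Field k] [IsAlgClosed k] {A : Type*} [Ring A] [Algebra k A]
  [FiniteDimensional k A]

/-- Wedderburn's theorem for the quotient by the radical. -/
theorem exists_wedderburn : ∃ (n : ℕ) (d : Fin n → ℕ) (π : ∀ i, A →ₐ[k] Matrix (Fin (d i)) (Fin (d i)) k),
    (∀ i, NeZero (d i)) ∧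
    (∀ y : (∀ i, Matrix (Fin (d i)) (Fin (d i)) k), ∃ a, ∀ i, π i a = y i) ∧
    (∃ N : ℕ, ∀ S : Submodule k A, (∀ x ∈ S, ∀ i, π i x = 0) → S ^ N = ⊥) ∧
    ∀ x, (∀ i, π i x = 0) → IsNilpotent x := by
  have : IsArtinianRing A := IsArtinianRing.of_finite k A
  obtain ⟨n, d, hd, ⟨e⟩⟩ := IsSemisimpleRing.exists_algEquiv_pi_matrix_of_isAlgClosed k
    (A ⧸ Ring.jacobson A)
  obtain ⟨N, hN⟩ := IsSemiprimaryRing.isNilpotent (R := A)
  let q : A →ₐ[k] (A ⧸ Ring.jacobson A) := Ideal.Quotient.mkₐ k (Ring.jacobson A)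
  have hJ : ∀ x, (∀ i, (Pi.evalAlgHom k _ i).comp (e.toAlgHom.comp q) x = 0) →
      x ∈ Ring.jacobson A := by
    intro x hx
    have : e (q x) = 0 := by
      funext i
      exact hx i
    have h2 : q x = 0 := by
      apply e.injective
      rw [this, map_zero]
    exact Ideal.Quotient.eq_zero_iff_mem.1 h2
  have h2 : ∀ S : Submodule k A, (∀ x ∈ S, x ∈ Ring.jacobson A) →
      ∀ m : ℕ, ∀ x ∈ S ^ m, x ∈ (Ring.jacobson A) ^ m := by
    intro S h1 m
    induction m with
    | zero =>
      intro x _
      rw [Submodule.pow_zero, Ideal.one_eq_top]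
      trivial
    | succ m ih =>
      intro x hx
      rw [Submodule.pow_succ] at hx ⊢
      refine Submodule.mul_induction_on hx ?_ ?_
      · intro y hy z hz
        exact Ideal.mul_mem_mul (ih y hy) (h1 z hz)
      · intro y z hy hz
        exact Ideal.add_mem _ hy hz
  have hnil : ∀ S : Submodule k A,
      (∀ x ∈ S, ∀ i, (Pi.evalAlgHom k _ i).comp (e.toAlgHom.comp q) x = 0) → S ^ N = ⊥ := by
    intro S hS
    rw [eq_bot_iff]
    intro x hx
    have := h2 S (fun x hx => hJ x (hS x hx)) N x hx
    rw [hN] at this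
    exact this
  refine ⟨n, d, fun i => (Pi.evalAlgHom k _ i).comp (e.toAlgHom.comp q), hd, ?_, ⟨N, hnil⟩, ?_⟩
  · intro y
    obtain ⟨a, ha⟩ := Ideal.Quotient.mkₐ_surjective k (Ring.jacobson A) (e.symm y)
    refine ⟨a, fun i => ?_⟩
    change e (q a) i = y i
    rw [show q a = e.symm y from ha, AlgEquiv.apply_symm_apply]
  · intro x hx
    refine ⟨N, ?_⟩
    have h3 := hnil (k ∙ x) (by
      intro y hy i
      obtain ⟨c, rfl⟩ := Submodule.mem_span_singleton.1 hy
      rw [map_smul, hx, smul_zero])
    have h4 : x ^ N ∈ (k ∙ x) ^ N := Submodule.pow_mem_pow _ (Submodule.mem_span_singleton_self x) N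
    rw [h3] at h4
    exact h4

/-- A nilpotent idempotent is zero. -/
theorem eq_zero_of_isNilpotent {R : Type*} [Ring R] {x : R} (hx : x * x = x) (h : IsNilpotent x) :
    x = 0 := by
  obtain ⟨N, hN⟩ := h
  have h1 : ∀ m : ℕ, x ^ (m + 1) = x := by
    intro m
    induction m with
    | zero => rw [zero_add, pow_one]
    | succ m ih => rw [pow_succ, ih, hx]
  rw [← h1 N, pow_succ, hN, zero_mul]

/-- A central idempotent is mapped to `0` or `1` by a surjection to a matrix algebra. -/
theorem map_central_idempotent {k : Type*} [Field k] {A : Type*} [Ring A] [Algebra k A] {n : ℕ}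
    {π : A →ₐ[k] Matrix (Fin n) (Fin n) k} (hπ : Function.Surjective π) {b : A} (hb : b * b = b)
    (hc : ∀ x, b * x = x * b) : π b = 0 ∨ π b = 1 := by
  have h1 : ∀ y : Matrix (Fin n) (Fin n) k, Commute y (π b) := by
    intro y
    obtain ⟨x, rfl⟩ := hπ y
    change π x * π b = π b * π x
    rw [← map_mul, ← map_mul, hc]
  obtain ⟨c, hc'⟩ := Matrix.mem_range_scalar_of_commute_single (M := π b) fun i j _ => h1 _
  rw [← hc']
  rcases Nat.eq_zero_or_pos n with rfl | hn
  · left
    ext i
    exact i.elim0
  · have h2 : c * c = c := by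
      have h3 : π b * π b = π b := by rw [← map_mul, hb]
      rw [← hc', ← map_mul] at h3
      have h4 := congrFun (congrFun h3 ⟨0, hn⟩) ⟨0, hn⟩
      simpa using h4
    have h5 : c = 0 ∨ c = 1 := by
      have : c * (c - 1) = 0 := by rw [mul_sub, h2, mul_one, sub_self]
      rcases mul_eq_zero.1 this with h | h
      · exact Or.inl h
      · exact Or.inr (sub_eq_zero.1 h)
    rcases h5 with h | h
    · left
      rw [h, map_zero]
    · right
      rw [h, map_one]

/-- If a central idempotent `b ≠ 0` is nonzero in at most one simple component, there is a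
surjection onto a matrix algebra as in `SymAlg.Dat` and a decomposition of `b`. -/
theorem exists_family {b : A} (hbb : b * b = b) (hbc : ∀ x, b * x = x * b) (hb0 : b ≠ 0)
    (huniq : ∀ (n m : ℕ) (_ : NeZero n) (_ : NeZero m) (π : A →ₐ[k] Matrix (Fin n) (Fin n) k)
      (π' : A →ₐ[k] Matrix (Fin m) (Fin m) k), Function.Surjective π → Function.Surjective π' →
      π b = 1 → π' b = 1 → ∀ a, π a = 1 → π' a ≠ 0) :
    ∃ (n : ℕ) (_ : NeZero n) (π : A →ₐ[k] Matrix (Fin n) (Fin n) k) (N : ℕ) (e : Fin n → A),
      Dat π b N ∧ (∀ i, Prim π b (e i) i) ∧ (∀ i j, i ≠ j → e i * e j = 0) ∧ ∑ i, e i = b := by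
  classical
  obtain ⟨r, d, π, hd, hsurj, ⟨N, hN⟩, hnil⟩ := exists_wedderburn (k := k) (A := A)
  have hπ : ∀ i, Function.Surjective (π i) := fun i y => by
    obtain ⟨a, ha⟩ := hsurj (Function.update 0 i y)
    exact ⟨a, by rw [ha, Function.update_self]⟩
  have h01 := fun i => map_central_idempotent (hπ i) hbb hbc
  have hex : ∃ i, π i b = 1 := by
    by_contra hcon
    have h0 : ∀ i, π i b = 0 := fun i => (h01 i).resolve_right fun h => hcon ⟨i, h⟩
    exact hb0 (eq_zero_of_isNilpotent hbb (hnil b h0))
  obtain ⟨i₀, hi⟩ := hex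
  have hj0 : ∀ j, j ≠ i₀ → π j b = 0 := by
    intro j hj
    refine (h01 j).resolve_right fun h => ?_
    obtain ⟨a, ha⟩ := hsurj (Function.update 0 i₀ 1)
    refine huniq _ _ (hd i₀) (hd j) (π i₀) (π j) (hπ i₀) (hπ j) hi h a ?_ ?_
    · rw [ha, Function.update_self]
    · rw [ha, Function.update_of_ne hj]
      rfl
  have hdat : Dat (π i₀) b N := by
    refine ⟨hπ i₀, hbb, hbc, hi, hN _ ?_⟩
    intro x hx j
    rw [mem_kerOn] at hx
    by_cases hj : j = i₀
    · rw [hj, hx.1]
    · rw [← hx.2, map_mul, hj0 j hj, mul_zero]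
  -- lifting
  let F : A →+* (∀ i, Matrix (Fin (d i)) (Fin (d i)) k) := RingHom.pi fun i => (π i : A →+* _)
  have hF : ∀ x, F x = 0 → IsNilpotent x := fun x hx => hnil x fun i => congrFun hx i
  let E : Fin (d i₀) → (∀ i, Matrix (Fin (d i)) (Fin (d i)) k) := fun j =>
    Pi.single i₀ (Matrix.single j j 1)
  have hEo : OrthogonalIdempotents E := by
    refine ⟨fun j => ?_, fun j j' hjj' => ?_⟩
    · change E j * E j = E j
      rw [← Pi.single_mul, Matrix.single_mul_single_same, mul_one]
    · change E j * E j' = 0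
      rw [← Pi.single_mul, Matrix.single_mul_single_of_ne _ _ _ _ hjj', Pi.single_zero]
  obtain ⟨e, he, heE⟩ := OrthogonalIdempotents.lift_of_isNilpotent_ker F
    (fun x hx => hF x hx) hEo (fun j => by
      obtain ⟨a, ha⟩ := hsurj (E j)
      exact ⟨a, funext ha⟩)
  have heE' : ∀ j i, π i (e j) = E j i := fun j i => congrFun (congrFun heE j) i
  have hee : ∀ j, e j * e j = e j := fun j => he.idem j
  have heo : ∀ i j, i ≠ j → e i * e j = 0 := fun i j hij => he.ortho hij
  have heb : ∀ j, e j * b = e j := by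
    intro j
    have h1 : (e j * (1 - b)) * (e j * (1 - b)) = e j * (1 - b) := by
      have h2 : (1 - b) * e j = e j * (1 - b) := by
        rw [sub_mul, mul_sub, one_mul, mul_one, hbc]
      have h3 : (1 - b) * (1 - b) = 1 - b := by
        rw [sub_mul, one_mul, mul_sub, mul_one, hbb, sub_self, sub_zero]
      rw [mul_assoc, ← mul_assoc (1 - b), h2, mul_assoc, h3, ← mul_assoc, hee]
    have h2 : e j * (1 - b) = 0 := by
      refine eq_zero_of_isNilpotent h1 (hnil _ fun i => ?_)
      rw [map_mul, map_sub, map_one, heE']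
      by_cases hii : i = i₀
      · subst hii
        rw [hi, sub_self, mul_zero]
      · change Pi.single (M := fun i => Matrix (Fin (d i)) (Fin (d i)) k) i₀ _ i * _ = 0
        rw [Pi.single_eq_of_ne hii, zero_mul]
    rw [mul_sub, mul_one, sub_eq_zero] at h2
    exact h2.symm
  have hsum : ∑ i, e i = b := by
    have hss : (∑ i, e i) * (∑ i, e i) = ∑ i, e i := he.isIdempotentElem_sum
    have hsb : (∑ i, e i) * b = ∑ i, e i := by
      rw [Finset.sum_mul]
      exact Finset.sum_congr rfl fun i _ => heb i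
    have h1 : (b - ∑ i, e i) * (b - ∑ i, e i) = b - ∑ i, e i := by
      rw [sub_mul, mul_sub, mul_sub, hbb, hbc, hsb, hss, sub_self, sub_zero]
    have h2 : b - ∑ i, e i = 0 := by
      refine eq_zero_of_isNilpotent h1 (hnil _ fun i => ?_)
      rw [map_sub, map_sum, Finset.sum_congr rfl fun j _ => heE' j i]
      by_cases hii : i = i₀
      · subst hii
        rw [hi]
        change 1 - ∑ x, Pi.single (M := fun i => Matrix (Fin (d i)) (Fin (d i)) k) i _ i = 0
        simp only [Pi.single_eq_same]
        rw [sub_eq_zero]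
        ext a c
        rw [Matrix.sum_apply, Matrix.one_apply]
        simp only [Matrix.single_apply]
        by_cases hac : a = c
        · subst hac
          simp
        · rw [if_neg hac, Finset.sum_eq_zero]
          intro x _
          rw [if_neg]
          rintro ⟨h, h'⟩
          exact hac (h.symm.trans h')
      · rw [hj0 i hii, Finset.sum_eq_zero, sub_zero]
        intro j _
        exact Pi.single_eq_of_ne hii _
    exact (sub_eq_zero.1 h2).symm
  refine ⟨d i₀, hd i₀, π i₀, N, e, hdat, fun j => ⟨hee j, heb j, ?_⟩, heo, hsum⟩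
  rw [heE']
  exact Pi.single_eq_same _ _

/-- Equivalence of the idempotents. -/
theorem exists_equiv {ι : Type*} [Fintype ι] [DecidableEq ι] {π : A →ₐ[k] Matrix ι ι k} {b : A}
    {N : ℕ} (h : Dat π b N) {i j : ι} {e f : A} (he : Prim π b e i) (hf : Prim π b f j) :
    ∃ x y : A, e * x * f = x ∧ f * y * e = y ∧ x * y = e ∧ y * x = f := by
  obtain ⟨a, ha⟩ := h.surj (Matrix.single i j 1)
  obtain ⟨c, hc⟩ := h.surj (Matrix.single j i 1)
  set x := e * a * f with hx
  set y₀ := f * c * e with hy₀
  have ex : e * x = x := by rw [hx, ← mul_assoc, ← mul_assoc, he.idem]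
  have xf : x * f = x := by rw [hx, mul_assoc, hf.idem]
  have fy : f * y₀ = y₀ := by rw [hy₀, ← mul_assoc, ← mul_assoc, hf.idem]
  have ye : y₀ * e = y₀ := by rw [hy₀, mul_assoc, he.idem]
  have xb : x * b = x := by conv_lhs => rw [← xf, mul_assoc, hf.mul, xf]
  have yb : y₀ * b = y₀ := by conv_lhs => rw [← ye, mul_assoc, he.mul, ye]
  have hπx : π x = Matrix.single i j 1 := by
    rw [hx, map_mul, map_mul, he.map, hf.map, ha, Matrix.single_mul_single_same,
      Matrix.single_mul_single_same, mul_one, mul_one]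
  have hπy : π y₀ = Matrix.single j i 1 := by
    rw [hy₀, map_mul, map_mul, he.map, hf.map, hc, Matrix.single_mul_single_same,
      Matrix.single_mul_single_same, mul_one, mul_one]
  set ν := e - x * y₀ with hν
  have hπν : π ν = 0 := by
    rw [hν, map_sub, map_mul, hπx, hπy, Matrix.single_mul_single_same, mul_one, he.map, sub_self]
  have hνb : ν * b = ν := by
    rw [hν, sub_mul, he.mul, mul_assoc, yb]
  have heν : e * ν = ν := by rw [hν, mul_sub, he.idem, ← mul_assoc, ex]
  have hνN : ν ^ N = 0 := h.pow_eq_zero (mem_kerOn.2 ⟨hπν, hνb⟩)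
  set w := ∑ m ∈ Finset.range N, ν ^ m with hw
  have hw1 : (1 - ν) * w = 1 := by rw [hw, mul_neg_geom_sum, hνN, sub_zero]
  have hπw : π w = 1 := by
    have := congrArg π hw1
    rwa [map_mul, map_sub, map_one, hπν, sub_zero, one_mul] at this
  have hzw : x * y₀ * w = e := by
    have h1 : x * y₀ = e * (1 - ν) := by
      rw [mul_sub, mul_one, heν, hν, sub_sub_cancel]
    rw [h1, mul_assoc, hw1, mul_one]
  clear_value w
  set y := y₀ * w * e with hy
  have hxy : x * y = e := by
    rw [hy, ← mul_assoc, ← mul_assoc, hzw, he.idem]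
  have hye : y * e = y := by rw [hy, mul_assoc, he.idem]
  have hfy : f * y = y := by rw [hy, ← mul_assoc, ← mul_assoc, fy]
  have hπy' : π y = Matrix.single j i 1 := by
    rw [hy, map_mul, map_mul, hπy, hπw, mul_one, he.map, Matrix.single_mul_single_same, mul_one]
  refine ⟨x, y, by rw [ex, xf], by rw [hfy, hye], hxy, ?_⟩
  have h1 : (f - y * x) * (f - y * x) = f - y * x := by
    have h2 : y * x * (y * x) = y * x := by
      rw [mul_assoc, ← mul_assoc x, hxy, ex]
    have h3 : f * (y * x) = y * x := by rw [← mul_assoc, hfy]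
    have h4 : y * x * f = y * x := by rw [mul_assoc, xf]
    rw [sub_mul, mul_sub, mul_sub, hf.idem, h2, h3, h4, sub_self, sub_zero]
  have h2 : f - y * x ∈ kerOn π b := by
    rw [mem_kerOn]
    constructor
    · rw [map_sub, map_mul, hf.map, hπy', hπx, Matrix.single_mul_single_same, mul_one, sub_self]
    · rw [sub_mul, hf.mul, mul_assoc, xb]
  exact (sub_eq_zero.1 (eq_zero_of_isNilpotent h1 ⟨N, h.pow_eq_zero h2⟩)).symm

end Wedderburn

section Rep

variable {K : Type*} [Field K] {G : Type*} [Group G] {n : ℕ}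

/-- The representation afforded by a homomorphism to matrices. -/
noncomputable def rep (π : MonoidAlgebra K G →ₐ[K] Matrix (Fin n) (Fin n) K) :
    Representation K G (Fin n → K) :=
  ((Matrix.toLinAlgEquiv' (R := K) (n := Fin n)).toAlgHom.comp π).toMonoidHom.comp
    (MonoidAlgebra.of K G)

theorem asAlgebraHom_rep (π : MonoidAlgebra K G →ₐ[K] Matrix (Fin n) (Fin n) K)
    (a : MonoidAlgebra K G) : (rep π).asAlgebraHom a = Matrix.toLinAlgEquiv' (π a) := by
  have : (rep π).asAlgebraHom = (Matrix.toLinAlgEquiv' (R := K) (n := Fin n)).toAlgHom.comp π := by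
    refine MonoidAlgebra.algHom_ext (fun g => ?_) ?_
    · rw [Representation.asAlgebraHom_single_one]
      rfl
    · ext
  rw [this]
  rfl

theorem isIrreducible_rep [NeZero n] {π : MonoidAlgebra K G →ₐ[K] Matrix (Fin n) (Fin n) K}
    (hπ : Function.Surjective π) : (rep π).IsIrreducible := by
  rw [Representation.irreducible_iff_isSimpleModule_asModule,
    isSimpleModule_iff_toSpanSingleton_surjective]
  refine ⟨inferInstanceAs (Nontrivial (Fin n → K)), fun v hv w => ?_⟩
  obtain ⟨j, hj⟩ : ∃ j : Fin n, (rep π).asModuleEquiv v j ≠ 0 := by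
    by_contra hcon
    apply hv
    apply (rep π).asModuleEquiv.injective
    rw [map_zero]
    funext j
    by_contra h
    exact hcon ⟨j, h⟩
  obtain ⟨a, ha⟩ := hπ (Matrix.of fun i j' => if j' = j then
    (rep π).asModuleEquiv w i / (rep π).asModuleEquiv v j else 0)
  refine ⟨a, ?_⟩
  apply (rep π).asModuleEquiv.injective
  rw [LinearMap.toSpanSingleton_apply, Representation.asModuleEquiv_map_smul, asAlgebraHom_rep, ha,
    Matrix.toLinAlgEquiv'_apply]
  funext i
  rw [Matrix.mulVec, dotProduct, Finset.sum_eq_single j]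
  · rw [Matrix.of_apply, if_pos rfl, div_mul_cancel₀ _ hj]
  · intro j' _ hj'
    rw [Matrix.of_apply, if_neg hj', zero_mul]
  · exact fun h => absurd (Finset.mem_univ _) h

theorem not_equiv_rep {m : ℕ} [NeZero n] {π : MonoidAlgebra K G →ₐ[K] Matrix (Fin n) (Fin n) K}
    {π' : MonoidAlgebra K G →ₐ[K] Matrix (Fin m) (Fin m) K} {a : MonoidAlgebra K G}
    (h1 : π a = 1) (h0 : π' a = 0) : IsEmpty (Representation.Equiv (rep π) (rep π')) := by
  refine ⟨fun ε => ?_⟩
  have h2 : ∀ x : MonoidAlgebra K G, ∀ v, ε ((rep π).asAlgebraHom x v) =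
      (rep π').asAlgebraHom x (ε v) := by
    intro x v
    induction x using MonoidAlgebra.induction_linear with
    | zero => simp
    | add x y hx hy => 
      rw [map_add, map_add, LinearMap.add_apply, LinearMap.add_apply, map_add, hx, hy]
    | single g c =>
      rw [Representation.asAlgebraHom_single, Representation.asAlgebraHom_single,
        LinearMap.smul_apply, LinearMap.smul_apply, map_smul]
      congr 1
      exact Representation.IntertwiningMap.isIntertwining _ _ ε.toIntertwiningMap g v
  have h3 : ∀ v, ε v = 0 := by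
    intro v
    have := h2 a v
    rw [asAlgebraHom_rep, asAlgebraHom_rep, h1, h0, map_one, map_zero] at this
    exact this
  have h4 : (fun _ => 1 : Fin n → K) = 0 := by
    apply ε.toLinearEquiv.injective
    exact (h3 _).trans (h3 _).symm
  have h5 := congrFun h4 0
  exact one_ne_zero h5

end Rep

universe u

variable {G : Type u} [Group G] [Finite G] {p : ℕ} [Fact p.Prime] {M : Ideal AlgInt} [M.IsPrime]

/-- **A block with `l(B) = 1` has a single simple module.** -/
theorem exists_dat (hM : IsPModular p M) {B : Set (IrrCharacter G)} (hB : IsPBlock M B)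
    (hl : blockRank p B = 1) :
    ∃ (n : ℕ) (_ : NeZero n)
      (π : MonoidAlgebra (ResField M) G →ₐ[ResField M] Matrix (Fin n) (Fin n) (ResField M)) (N : ℕ)
      (e : Fin n → MonoidAlgebra (ResField M) G),
      Dat π (idem M B) N ∧ (∀ i, Prim π (idem M B) (e i) i) ∧ (∀ i j, i ≠ j → e i * e j = 0) ∧
        ∑ i, e i = idem M B := by
  have hmax : M.IsMaximal := hM.2.1
  have halg : IsAlgClosed (ResField M) := Cfsg.Agent.Blocks.CyclicAssembly.isAlgClosed_resField
  have hU := isUnion_of_isPBlock hB
  refine exists_family (idem_mul_self hM hU) (fun x => isCls_comm (isCls_idem B) x)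
    (idem_ne_zero hM hU (Cfsg.Agent.Blocks.Basic.isPBlock_nonempty hB)) ?_
  intro n m hn hm π π' hπ hπ' h1 h1' a ha ha'
  let d : Bool → ℕ := fun i => match i with
    | false => n
    | true => m
  let P : ∀ i : Bool, MonoidAlgebra (ResField M) G →ₐ[ResField M]
      Matrix (Fin (d i)) (Fin (d i)) (ResField M) := fun i => match i with
    | false => π
    | true => π'
  have hle : Nat.card Bool ≤ blockRank p B := by
    refine Cfsg.Agent.H653.RankBound.card_le_blockRank hM hB (ι := Bool) (fun i => rep (P i))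
      (fun i => ?_) (fun i j hij => ?_) fun i => ?_
    · cases i
      · exact isIrreducible_rep hπ
      · exact isIrreducible_rep hπ'
    · have h2 : π (1 - a) = 0 := by rw [map_sub, map_one, ha, sub_self]
      have h3 : π' (1 - a) = 1 := by rw [map_sub, map_one, ha', sub_zero]
      cases i <;> cases j
      · exact absurd rfl hij
      · exact not_equiv_rep ha ha'
      · exact not_equiv_rep h3 h2
      · exact absurd rfl hij
    · rw [asAlgebraHom_rep]
      cases i
      · change Matrix.toLinAlgEquiv' (π _) = 1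
        rw [h1, map_one]
      · change Matrix.toLinAlgEquiv' (π' _) = 1
        rw [h1', map_one]
  rw [hl] at hle
  simp at hle

end Cfsg.Agent.H645.OneSimple
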