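import Mathlib
import Cfsg.Agent.H645.OneSimple
import Cfsg.Agent.H645.IdemSys
import Cfsg.Agent.H646.RankIdem
import Cfsg.Agent.Blocks.GroupAlg

/-!
# Degrees and dimensions in a block with `p`-regular rank one

* `dvd_charDegree` : if `π : K[G] → M_n(K)` is the simple component of the block `B`, then `n`
  divides all character degrees in `B`;
* `finrank_block` : `dim K[G] b = ∑ χ(1) ^ 2`;
* `finrank_cen_le` : `dim Z(K[G] b) ≤ k(B)`;
* `le_four` : if `l(B) = 1` and `k(B) ≤ 4`, then `∑ χ(1) ^ 2 = n ^ 2 * m` with `m ≤ k(B)` and `n`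
  dividing all degrees.
-/

set_option autoImplicit false
set_option linter.unusedSectionVars false

open Cfsg

namespace Cfsg.Agent.H645.Degree

open Module
open Cfsg.Agent.Blocks.Local Cfsg.Agent.H644 Cfsg.Agent.H645.SymAlg Cfsg.Agent.H645.IdemSys
open Cfsg.Agent.H645.OneSimple

universe u

variable {G : Type u} [Group G] [Finite G] {p : ℕ} [Fact p.Prime] {M : Ideal AlgInt} [M.IsPrime]

/-- The value of a character at an idempotent is a natural number. -/
theorem exists_nat_lin {χ : G → ℂ} (hχ : IsIrrCharacter G χ) {e : MonoidAlgebra ℂ G}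
    (he : e * e = e) : ∃ m : ℕ, Cfsg.Agent.Blocks.GroupAlg.lin χ e = m := by
  obtain ⟨n, ρ, hρ, rfl⟩ := hχ
  rw [← Cfsg.Agent.Blocks.GroupAlg.trace_asAlgebraHom]
  have h1 : IsIdempotentElem (ρ.asAlgebraHom e) := by
    unfold IsIdempotentElem
    rw [← map_mul, he]
  exact ⟨_, (LinearMap.IsIdempotentElem.isProj_range _ h1).trace⟩

theorem lin_comm {χ : G → ℂ} (hχ : IsIrrCharacter G χ) (a b : MonoidAlgebra ℂ G) :
    Cfsg.Agent.Blocks.GroupAlg.lin χ (a * b) = Cfsg.Agent.Blocks.GroupAlg.lin χ (b * a) := by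
  refine Cfsg.Agent.Blocks.GroupAlg.lin_mul_comm (fun g h => ?_) a b
  have := Cfsg.Agent.Characters.Core.isIrr_isClassFunction hχ (g * h) g⁻¹
  rw [← this]
  congr 1
  group

/-- The idempotent over the local ring. -/
theorem exists_lift_idem (hM : IsPModular p M) {B : Set (IrrCharacter G)} (hB : IsUnion M B) :
    ∃ F : MonoidAlgebra (localRing M) G, F * F = F ∧ mapR M G F = idem M B ∧
      mapC M G F = Cfsg.Agent.Blocks.GroupAlg.idem B := by
  have hR := memLocalRing_blockCoeff hM hB
  set F : MonoidAlgebra (localRing M) G := ofR fun g => ⟨blockCoeff B g, hR g⟩ with hF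
  have h1 : mapC M G F = Cfsg.Agent.Blocks.GroupAlg.idem B := by
    apply IdemSys.ext_coeff
    intro g
    rw [coeff_mapC, hF, coeff_ofR]
    rfl
  refine ⟨F, ?_, ?_, h1⟩
  · apply mapC_injective
    rw [map_mul, h1, Cfsg.Agent.Blocks.GroupAlg.idem_mul_idem]
  · rw [mapR_eq_toK, h1]
    rfl

theorem dvd_charDegree (hM : IsPModular p M) {B : Set (IrrCharacter G)} (hB : IsPBlock M B)
    {n : ℕ} [NeZero n]
    {π : MonoidAlgebra (ResField M) G →ₐ[ResField M] Matrix (Fin n) (Fin n) (ResField M)} {N : ℕ}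
    {e : Fin n → MonoidAlgebra (ResField M) G} (hdat : Dat π (idem M B) N)
    (hprim : ∀ i, Prim π (idem M B) (e i) i) (horth : ∀ i j, i ≠ j → e i * e j = 0)
    (hsum : ∑ i, e i = idem M B) {χ : IrrCharacter G} (hχ : χ ∈ B) :
    n ∣ charDegree (χ : G → ℂ) := by
  classical
  have hmax : M.IsMaximal := hM.2.1
  have halg : IsAlgClosed (ResField M) := Cfsg.Agent.Blocks.CyclicAssembly.isAlgClosed_resField
  obtain ⟨F, hFF, hFR, hFC⟩ := exists_lift_idem hM (isUnion_of_isPBlock hB)
  obtain ⟨E, hE, hEo, hEs, hEφ⟩ := Idem.exists_lift_family (sys (M := M)) (redMap (M := M) (G := G))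
    hFF e (fun i => (hprim i).idem) horth (by rw [hsum, hFR])
  set T : MonoidAlgebra ℂ G →ₗ[ℂ] ℂ := Cfsg.Agent.Blocks.GroupAlg.lin (χ : G → ℂ) with hT
  have hTE : ∀ i, T (mapC M G (E i)) = T (mapC M G (E 0)) := by
    intro i
    obtain ⟨x, y, hx, hy, hxy, hyx⟩ := exists_equiv hdat (hprim i) (hprim 0)
    obtain ⟨x', y', _, _, _, _, h1, h2, _⟩ := Idem.exists_conj (sys (M := M))
      (redMap (M := M) (G := G)) (hE i) (hE 0) (x := x) (y := y) (by rw [hEφ, hEφ, hx])
      (by rw [hEφ, hEφ, hy]) (by rw [hEφ, hxy]) (by rw [hEφ, hyx])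
    rw [← h1, ← h2, RingHom.map_mul, RingHom.map_mul]
    exact lin_comm χ.2 _ _
  obtain ⟨m, hm⟩ := exists_nat_lin χ.2 (e := mapC M G (E 0)) (by rw [← map_mul, hE])
  have h1 : T (mapC M G F) = (χ : G → ℂ) 1 := by
    rw [hFC]
    have h2 := Cfsg.Agent.Blocks.GroupAlg.omega_idem B χ
    rw [if_pos hχ, Cfsg.Agent.Blocks.GroupAlg.omega_def,
      div_eq_one_iff_eq (Cfsg.Agent.Characters.Core.isIrr_apply_one_ne_zero χ.2)] at h2
    exact h2
  rw [← hEs, map_sum, map_sum, Finset.sum_congr rfl fun i _ => hTE i, Finset.sum_const,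
    Finset.card_univ, Fintype.card_fin, nsmul_eq_mul] at h1
  have h2 : T (mapC M G (E 0)) = m := hm
  rw [h2, Cfsg.Agent.Blocks.Knorr.charDegree_eq χ.2] at h1
  exact ⟨m, by exact_mod_cast h1.symm⟩

/-- The dimension of the block algebra. -/
theorem finrank_block (hM : IsPModular p M) {B : Set (IrrCharacter G)} (hB : IsPBlock M B) :
    finrank (ResField M) (LinearMap.range (LinearMap.mulRight (ResField M) (idem M B))) =
      ∑ᶠ χ ∈ B, charDegree (χ : G → ℂ) ^ 2 := by
  have := Fintype.ofFinite G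
  rw [← Cfsg.Agent.H646.RankIdem.rank_convK_idem hM (isUnion_of_isPBlock hB)]
  unfold Matrix.rank
  let φ : MonoidAlgebra (ResField M) G ≃ₗ[ResField M] (G → ResField M) :=
    { toFun := fun x g => x.coeff g
      invFun := fun f => mkA f
      left_inv := fun x => mkA_coeff x
      right_inv := fun f => rfl
      map_add' := fun x y => by
        funext g
        rw [MonoidAlgebra.coeff_add]
        rfl
      map_smul' := fun c x => by
        funext g
        rw [MonoidAlgebra.coeff_smul]
        rfl }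
  have h1 : (LinearMap.range (LinearMap.mulRight (ResField M) (idem M B))).map φ.toLinearMap =
      LinearMap.range (Cfsg.Agent.H646.RankIdem.convK (idem M B)).mulVecLin := by
    ext f
    rw [Submodule.mem_map, LinearMap.mem_range]
    constructor
    · rintro ⟨_, ⟨a, rfl⟩, rfl⟩
      refine ⟨φ a, ?_⟩
      rw [Matrix.mulVecLin_apply]
      exact Cfsg.Agent.H646.RankIdem.convK_mulVec (idem M B) a
    · rintro ⟨f', rfl⟩
      refine ⟨φ.symm f' * idem M B, ⟨φ.symm f', rfl⟩, ?_⟩
      rw [Matrix.mulVecLin_apply]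
      have := Cfsg.Agent.H646.RankIdem.convK_mulVec (idem M B) (φ.symm f')
      exact this.symm
  rw [← h1]
  exact (LinearEquiv.finrank_map_eq φ _).symm

/-- The centre of a block algebra has dimension at most the number of characters. -/
theorem finrank_cen_le (hM : IsPModular p M) {B : Set (IrrCharacter G)} (hB : IsPBlock M B) :
    finrank (ResField M) (cen (ResField M) (idem M B)) ≤ Nat.card B := by
  classical
  have := Fintype.ofFinite G
  have : Finite (IrrCharacter G) := Cfsg.Agent.Characters.Core.finite_irr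
  have := Fintype.ofFinite (IrrCharacter G)
  have hR := memLocalRing_blockCoeff hM (isUnion_of_isPBlock hB)
  set r := finrank (ResField M) (cen (ResField M) (idem M B)) with hr
  let z := Module.finBasis (ResField M) (cen (ResField M) (idem M B))
  have hz : ∀ i, IsCls (z i : MonoidAlgebra (ResField M) G) := fun i =>
    isCls_of_comm fun y => (mem_cen.1 (z i).2).2 y
  choose f hf hfR hfz using fun i => exists_toK (hz i)
  let g : Fin r → G → ℂ := fun i => Cfsg.Agent.Blocks.BlockRank.blockOp B fun x => f i x⁻¹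
  have hcf : ∀ i, IsClassFunction G fun x => f i x⁻¹ := by
    intro i x y
    change f i (y * x * y⁻¹)⁻¹ = f i x⁻¹
    rw [← hf i x⁻¹ y]
    congr 1
    group
  have hgR : ∀ i x, MemLocalRing M (g i x) := fun i x =>
    memLocalRing_sum fun h _ => memLocalRing_mul (hR h) (hfR i _)
  have hred : ∀ i x, redC M (g i x) = (z i : MonoidAlgebra (ResField M) G).coeff x⁻¹ := by
    intro i x
    have h1 : (z i : MonoidAlgebra (ResField M) G) =
        idem M B * (z i : MonoidAlgebra (ResField M) G) := by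
      conv_lhs => rw [← (mem_cen.1 (z i).2).1, (mem_cen.1 (z i).2).2]
    rw [h1, coeff_mul_eq_sum]
    change redC M (∑ h, blockCoeff B h * f i (h * x)⁻¹) = _
    rw [redC_sum fun h _ => memLocalRing_mul (hR h) (hfR i _)]
    refine Finset.sum_congr rfl fun h _ => ?_
    rw [redC_mul (hR h) (hfR i _), coeff_idem]
    congr 1
    rw [← hfz i, coeff_toK]
    congr 1
    rw [show (h * x)⁻¹ = x⁻¹ * h⁻¹ by group, ← hf i (h⁻¹ * x⁻¹) h]
    congr 1
    group
  have hli : LinearIndependent (ResField M) (fun i x => redC M (g i x)) := by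
    rw [Fintype.linearIndependent_iff]
    intro c hc
    have h1 := Fintype.linearIndependent_iff.1 z.linearIndependent c
    apply h1
    apply Subtype.ext
    rw [Submodule.coe_sum]
    apply H644.ext_coeff
    intro x
    have h2 := congrFun hc x⁻¹
    rw [Finset.sum_apply] at h2
    rw [MonoidAlgebra.coeff_sum, Finsupp.finsetSum_apply]
    refine Eq.trans (Finset.sum_congr rfl fun i _ => ?_) h2
    rw [Submodule.coe_smul, MonoidAlgebra.coeff_smul, Finsupp.smul_apply, Pi.smul_apply, hred,
      inv_inv]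
  have hliC : LinearIndependent ℂ g :=
    Cfsg.Agent.Blocks.BlockRank.linearIndependent_of_redC (M := M) g hgR hli
  set S := Submodule.span ℂ ((fun χ : IrrCharacter G => (χ : G → ℂ)) '' B) with hS
  let w : Fin r → S := fun i =>
    ⟨g i, Cfsg.Agent.Blocks.BlockRank.blockOp_mem_span B (hcf i)⟩
  have hw : LinearIndependent ℂ w := by
    apply LinearIndependent.of_comp S.subtype
    exact hliC
  have h1 := hw.fintype_card_le_finrank
  rw [Fintype.card_fin] at h1
  refine h1.trans ?_
  have hBfin : (B : Set (IrrCharacter G)).Finite := Set.toFinite B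
  have h2 : finrank ℂ S ≤ ((fun χ : IrrCharacter G => (χ : G → ℂ)) '' B).toFinset.card :=
    finrank_span_le_card _
  refine h2.trans ?_
  rw [Set.toFinset_image]
  refine Finset.card_image_le.trans ?_
  rw [Nat.card_eq_fintype_card, Set.toFinset_card]

/-- The coefficient at `1`. -/
noncomputable def tr (k : Type*) [Field k] (G : Type*) [Group G] : MonoidAlgebra k G →ₗ[k] k where
  toFun x := x.coeff 1
  map_add' x y := by rw [MonoidAlgebra.coeff_add, Finsupp.add_apply]
  map_smul' c x := by rw [MonoidAlgebra.coeff_smul, Finsupp.smul_apply]; rfl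

theorem tr_mul_comm {k : Type*} [Field k] (x y : MonoidAlgebra k G) :
    tr k G (x * y) = tr k G (y * x) := by
  have := Fintype.ofFinite G
  change (x * y).coeff 1 = (y * x).coeff 1
  rw [coeff_mul_eq_sum, coeff_mul_eq_sum]
  refine Fintype.sum_equiv (Equiv.inv G) _ _ fun g => ?_
  rw [Equiv.inv_apply, inv_inv, mul_one, mul_one, mul_comm]

theorem tr_nondegenerate {k : Type*} [Field k] (x : MonoidAlgebra k G)
    (h : ∀ y, tr k G (x * y) = 0) : x = 0 := by
  classical
  have := Fintype.ofFinite G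
  apply H644.ext_coeff
  intro g
  have h1 := h (MonoidAlgebra.single g⁻¹ 1)
  change (x * MonoidAlgebra.single g⁻¹ 1).coeff 1 = 0 at h1
  rw [coeff_mul_eq_sum, Finset.sum_eq_single g] at h1
  · rw [MonoidAlgebra.coeff_single, mul_one, Finsupp.single_eq_same, mul_one] at h1
    exact h1
  · intro a _ ha
    rw [MonoidAlgebra.coeff_single, mul_one, Finsupp.single_eq_of_ne, mul_zero]
    exact fun h => ha (inv_injective h)
  · exact fun h => absurd (Finset.mem_univ _) h

/-- **Külshammer.** -/
theorem exists_count (hM : IsPModular p M) {B : Set (IrrCharacter G)} (hB : IsPBlock M B)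
    (hl : blockRank p B = 1) (hk : Nat.card B ≤ 4) :
    ∃ n m : ℕ, 0 < n ∧ (∀ χ ∈ B, n ∣ charDegree (χ : G → ℂ)) ∧ m ≤ Nat.card B ∧
      ∑ᶠ χ ∈ B, charDegree (χ : G → ℂ) ^ 2 = n ^ 2 * m := by
  obtain ⟨n, hn, π, N, e, hdat, hprim, horth, hsum⟩ := exists_dat hM hB hl
  have h4 := finrank_cen_le hM hB
  refine ⟨n, finrank (ResField M) (cen (ResField M) (idem M B)), Nat.pos_of_ne_zero hn.out,
    fun χ hχ => dvd_charDegree hM hB hdat hprim horth hsum hχ, h4, ?_⟩
  rw [← finrank_block hM hB, finrank_eq_of_small_center (s := tr (ResField M) G)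
    tr_mul_comm tr_nondegenerate hdat (hprim 0) (h4.trans hk), Fintype.card_fin]

end Cfsg.Agent.H645.Degree
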