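import Mathlib
import Cfsg.Agent.H645.Degree
import Cfsg.Agent.H645.SubCount
import Cfsg.Agent.H645.SmallTrans
import Cfsg.Agent.S4675
import Cfsg.Agent.S4676
import Cfsg.Agent.S4687
import Cfsg.Agent.S0908
import Cfsg.Agent.H641.Inertial
import Cfsg.Agent.H651.LocalPair
import Cfsg.Agent.H658.Major

/-!
# Blocks with `l(B) = 1` and `k(B) ≤ 4`

* `card_defect_eq` : `|D| = k(B)`;
* `conj_of_trans`, `unique_of_trans` : if the stabilizer of a maximal pair `(P, e)` is transitive on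
  the nontrivial elements of `P`, then the nontrivial subsections of `B` are conjugate.
-/

set_option autoImplicit false
set_option linter.unusedSectionVars false

open Cfsg

namespace Cfsg.Agent.H645.RankOneFour

open Cfsg.Agent.Blocks.Local Cfsg.Agent.Blocks.Basic

universe u

variable {G : Type u} [Group G] [Finite G] {p : ℕ} [Fact p.Prime] {M : Ideal AlgInt}

theorem isPRegular_one : IsPRegular p (1 : G) := by
  unfold IsPRegular
  rw [orderOf_one]
  exact fun h => (Fact.out : p.Prime).one_lt.ne' (Nat.dvd_one.1 h)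

/-- **The order of the defect group.** -/
theorem card_defect_eq (hM : IsPModular p M) {B : Set (IrrCharacter G)} (hB : IsPBlock M B)
    {D : Subgroup G} (hD : IsDefectGroup p M B D) (hl : blockRank p B = 1)
    (hk : Nat.card B ≤ 4) : Nat.card D = Nat.card B := by
  classical
  have hMp := isPrime_of_isPModular hM
  have := Fintype.ofFinite G
  have hfin : Finite (IrrCharacter G) := Cfsg.Agent.Characters.Core.finite_irr
  obtain ⟨n, m, hn, hdvd, hm, hsum⟩ := Degree.exists_count hM hB hl hk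
  obtain ⟨φ, d, ⟨c, hφ⟩, hd, hdsum⟩ := S4675.result p M hM B hB D hD hl
  have hBf : B.Finite := Set.toFinite B
  have hdeg : ∀ χ : IrrCharacter G, (χ : G → ℂ) 1 = (charDegree (χ : G → ℂ) : ℂ) := fun χ =>
    Blocks.Knorr.charDegree_eq χ.2
  have hpos : ∀ χ : IrrCharacter G, (χ : G → ℂ) 1 ≠ 0 := fun χ =>
    Cfsg.Agent.Characters.Core.isIrr_apply_one_ne_zero χ.2
  -- `φ 1 = n * g`
  choose! q hq using hdvd
  set g : ℤ := ∑ ψ ∈ hBf.toFinset, c ψ * q ψ with hg
  have hφ1 : φ 1 = (n : ℂ) * (g : ℂ) := by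
    rw [hφ 1 isPRegular_one, finsum_mem_eq_finite_toFinset_sum _ hBf, hg, Int.cast_sum,
      Finset.mul_sum]
    refine Finset.sum_congr rfl fun ψ hψ => ?_
    rw [hdeg, hq ψ (hBf.mem_toFinset.1 hψ)]
    push_cast
    ring
  have hχ1 : ∀ χ ∈ B, ((charDegree (χ : G → ℂ) : ℕ) : ℂ) = (d χ : ℂ) * ((n : ℂ) * (g : ℂ)) := by
    intro χ hχ
    rw [← hdeg, hd χ hχ 1 isPRegular_one, hφ1]
  have h1 : ((n : ℂ) * g) ^ 2 * (Nat.card D : ℂ) = (n : ℂ) ^ 2 * (m : ℂ) := by
    rw [finsum_mem_eq_finite_toFinset_sum _ hBf] at hsum hdsum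
    have h2 : ((∑ χ ∈ hBf.toFinset, charDegree (χ : G → ℂ) ^ 2 : ℕ) : ℂ) = (n : ℂ) ^ 2 * (m : ℂ) := by
      rw [hsum]
      push_cast
      ring
    rw [← h2, ← hdsum]
    push_cast
    rw [Finset.mul_sum]
    refine Finset.sum_congr rfl fun χ hχ => ?_
    rw [hχ1 χ (hBf.mem_toFinset.1 hχ)]
    ring
  have hn0 : (n : ℂ) ≠ 0 := by exact_mod_cast hn.ne'
  have h2 : g ^ 2 * (Nat.card D : ℤ) = (m : ℤ) := by
    have h3 : (g : ℂ) ^ 2 * (Nat.card D : ℂ) = (m : ℂ) := by
      have h4 : (n : ℂ) ^ 2 * ((g : ℂ) ^ 2 * (Nat.card D : ℂ)) = (n : ℂ) ^ 2 * (m : ℂ) := by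
        rw [← h1]; ring
      exact mul_left_cancel₀ (pow_ne_zero 2 hn0) h4
    exact_mod_cast h3
  obtain ⟨χ₀, hχ₀⟩ := isPBlock_nonempty hB
  have hg0 : g ≠ 0 := by
    intro h0
    apply hpos χ₀
    rw [hdeg, hχ1 χ₀ hχ₀, h0]
    simp
  have hD0 : 0 < Nat.card D := Nat.card_pos
  have h3 : Nat.card B ≤ Nat.card D := by
    rw [← hdsum, finsum_mem_eq_finite_toFinset_sum _ hBf]
    have h4 : Nat.card B = ∑ χ ∈ hBf.toFinset, 1 := by
      rw [Finset.sum_const, smul_eq_mul, mul_one, ← Nat.card_eq_card_finite_toFinset hBf]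
    rw [h4]
    refine Finset.sum_le_sum fun χ hχ => ?_
    have h5 : d χ ≠ 0 := by
      intro h0
      apply hpos χ
      rw [hdeg, hχ1 χ (hBf.mem_toFinset.1 hχ), h0]
      simp
    exact Nat.one_le_pow _ _ (Nat.pos_of_ne_zero h5)
  have h4 : (1 : ℤ) ≤ g ^ 2 := by
    have := sq_nonneg g
    have h5 : g ^ 2 ≠ 0 := pow_ne_zero 2 hg0
    omega
  have h5 : (m : ℤ) ≤ Nat.card B := by exact_mod_cast hm
  have h6 : (Nat.card B : ℤ) ≤ Nat.card D := by exact_mod_cast h3
  have h7 : (Nat.card D : ℤ) ≤ m := by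
    rw [← h2]
    have : (0 : ℤ) ≤ Nat.card D := by positivity
    nlinarith
  have h8 : (Nat.card D : ℤ) = Nat.card B := by omega
  exact_mod_cast h8

section Pairs

open Cfsg.Agent.H649 (conjIdx LEIdx leIdx_conjIdx_iff conjIdx_conjIdx conjIdx_fst conjIdx_mk
  conjIdx_inv_conjIdx leIdx_iff conjIdx_one)

variable {B : Set (IrrCharacter G)} {P : Subgroup G}
  {e : Set (IrrCharacter (Subgroup.centralizer (P : Set G)))}

/-- Two pairs below `(P, e)` with the same subgroup are equal. -/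
theorem eq_of_le [M.IsPrime] (hM : IsPModular p M) (hPe : IsBrauerPair p M P e)
    {a b : BrauerPairIdx G} (ha : LEIdx p M a ⟨P, e⟩) (hb : LEIdx p M b ⟨P, e⟩)
    (hab : a.1 = b.1) : a = b := by
  obtain ⟨Q, f⟩ := a
  obtain ⟨Q', f'⟩ := b
  change Q = Q' at hab
  subst hab
  rw [Cfsg.Agent.H644.subpairLE_unique hM hPe Q f f' ha hb]

theorem centralizer_singleton_eq (x : G) : Subgroup.centralizer ({x} : Set G) =
    Subgroup.centralizer ((Subgroup.zpowers x : Subgroup G) : Set G) := by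
  ext g
  rw [Subgroup.mem_centralizer_singleton_iff, Subgroup.mem_centralizer_iff]
  constructor
  · intro h y hy
    obtain ⟨k, rfl⟩ := Subgroup.mem_zpowers_iff.1 hy
    exact ((show Commute x g from h.symm).zpow_left k).eq
  · intro h
    exact (h x (Subgroup.mem_zpowers x)).symm

/-- Nontrivial subsections can be conjugated to `u`. -/
theorem exists_conj_to [M.IsPrime] (hM : IsPModular p M) (hmax : IsMaximalBrauerPair p M B P e)
    {u : G} (htr : ∀ z ∈ P, z ≠ 1 → ∃ s : G, conjIdx s ⟨P, e⟩ = ⟨P, e⟩ ∧ s * z * s⁻¹ = u)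
    {x : G} (hx1 : x ≠ 1) (hxp : ∃ k : ℕ, orderOf x = p ^ k) {C : Subgroup G}
    (hC : C = Subgroup.centralizer ((Subgroup.zpowers x : Subgroup G) : Set G))
    {b : Set (IrrCharacter C)} (hb : IsInducedBlock M C b B) :
    ∃ f : Set (IrrCharacter (Subgroup.centralizer ((Subgroup.zpowers x : Subgroup G) : Set G))),
      HEq b f ∧ IsPBlock M f ∧
      ∃ g : G, g * x * g⁻¹ = u ∧ LEIdx p M (conjIdx g ⟨Subgroup.zpowers x, f⟩) ⟨P, e⟩ := by
  subst hC
  refine ⟨b, HEq.rfl, hb.1, ?_⟩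
  have hxP : IsPGroup p (Subgroup.zpowers x) := by
    obtain ⟨k, hk⟩ := hxp
    exact IsPGroup.of_card (n := k) (by rw [Nat.card_zpowers, hk])
  have hpair : IsBrauerPairOf p M B (Subgroup.zpowers x) b :=
    (Cfsg.Agent.H649.isBrauerPairOf_iff_isInducedBlock hM hb.2.1 hxP hb.1).2 hb
  obtain ⟨g₁, hg₁⟩ := Cfsg.Agent.H644.exists_conj_subpairLE hM hmax hpair
  have hle : LEIdx p M (conjIdx g₁ ⟨Subgroup.zpowers x, b⟩) ⟨P, e⟩ := by
    rw [conjIdx_mk]
    exact hg₁
  have hz : g₁ * x * g₁⁻¹ ∈ P := by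
    exact Cfsg.Agent.H644.subpairLE_le hg₁ ⟨x, Subgroup.mem_zpowers x, rfl⟩
  have hz1 : g₁ * x * g₁⁻¹ ≠ 1 := by
    intro h
    apply hx1
    have : x = g₁⁻¹ * (g₁ * x * g₁⁻¹) * g₁ := by group
    rw [this, h]
    group
  obtain ⟨s, hs, hsz⟩ := htr _ hz hz1
  refine ⟨s * g₁, ?_, ?_⟩
  · rw [← hsz]
    group
  · rw [← conjIdx_conjIdx]
    have := (leIdx_conjIdx_iff s).2 hle
    rwa [hs] at this

theorem conj_of_trans [M.IsPrime] (hM : IsPModular p M) (hmax : IsMaximalBrauerPair p M B P e)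
    {u : G} (htr : ∀ z ∈ P, z ≠ 1 → ∃ s : G, conjIdx s ⟨P, e⟩ = ⟨P, e⟩ ∧ s * z * s⁻¹ = u)
    {x y : G} (hx1 : x ≠ 1) (hy1 : y ≠ 1) (hxp : ∃ k : ℕ, orderOf x = p ^ k)
    (hyp : ∃ k : ℕ, orderOf y = p ^ k)
    {b : Set (IrrCharacter (Subgroup.centralizer ({x} : Set G)))}
    {c : Set (IrrCharacter (Subgroup.centralizer ({y} : Set G)))}
    (hb : IsInducedBlock M (Subgroup.centralizer ({x} : Set G)) b B)
    (hc : IsInducedBlock M (Subgroup.centralizer ({y} : Set G)) c B) : IsConj x y := by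
  obtain ⟨-, -, -, g, hg, -⟩ := exists_conj_to hM hmax htr hx1 hxp (centralizer_singleton_eq x) hb
  obtain ⟨-, -, -, h, hh, -⟩ := exists_conj_to hM hmax htr hy1 hyp (centralizer_singleton_eq y) hc
  rw [isConj_iff]
  refine ⟨h⁻¹ * g, ?_⟩
  have h1 : y = h⁻¹ * u * h := by rw [← hh]; group
  rw [h1, ← hg]
  group

theorem unique_of_trans [M.IsPrime] (hM : IsPModular p M) (hmax : IsMaximalBrauerPair p M B P e)
    {u : G} (htr : ∀ z ∈ P, z ≠ 1 → ∃ s : G, conjIdx s ⟨P, e⟩ = ⟨P, e⟩ ∧ s * z * s⁻¹ = u)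
    {x : G} (hx1 : x ≠ 1) (hxp : ∃ k : ℕ, orderOf x = p ^ k)
    {b b' : Set (IrrCharacter (Subgroup.centralizer ({x} : Set G)))}
    (hb : IsInducedBlock M (Subgroup.centralizer ({x} : Set G)) b B)
    (hb' : IsInducedBlock M (Subgroup.centralizer ({x} : Set G)) b' B) : b = b' := by
  obtain ⟨f, hf, hfB, g, hg, hle⟩ :=
    exists_conj_to hM hmax htr hx1 hxp (centralizer_singleton_eq x) hb
  obtain ⟨f', hf', hfB', g', hg', hle'⟩ :=
    exists_conj_to hM hmax htr hx1 hxp (centralizer_singleton_eq x) hb'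
  have hmap : ∀ h : G, (Subgroup.zpowers x).map (MulAut.conj h).toMonoidHom =
      Subgroup.zpowers (h * x * h⁻¹) := fun h => by
    rw [MonoidHom.map_zpowers]
    rfl
  have h1 : conjIdx g ⟨Subgroup.zpowers x, f⟩ = conjIdx g' ⟨Subgroup.zpowers x, f'⟩ := by
    refine eq_of_le hM hmax.1.1 hle hle' ?_
    rw [conjIdx_fst, conjIdx_fst, hmap, hmap, hg, hg']
  have h2 : conjIdx (g'⁻¹ * g) ⟨Subgroup.zpowers x, f⟩ = ⟨Subgroup.zpowers x, f'⟩ := by
    rw [← conjIdx_conjIdx, h1, conjIdx_inv_conjIdx]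
  have h3 : g'⁻¹ * g ∈ Subgroup.centralizer ((Subgroup.zpowers x : Subgroup G) : Set G) := by
    rw [← centralizer_singleton_eq, Subgroup.mem_centralizer_singleton_iff]
    have h4 : g * x * g⁻¹ = g' * x * g'⁻¹ := by rw [hg, hg']
    calc g'⁻¹ * g * x = g'⁻¹ * (g * x * g⁻¹) * g := by group
      _ = x * (g'⁻¹ * g) := by rw [h4]; group
  have h4 := Cfsg.Agent.H651.centralizer_le_idxStab hfB h3
  rw [Cfsg.Agent.H651.mem_idxStab, h2] at h4
  have h5 : f' = f := by
    have := (Sigma.mk.inj_iff.1 h4).2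
    exact eq_of_heq this
  subst h5
  exact eq_of_heq (hf.trans hf'.symm)

/-- The rank of a nontrivial subsection block. -/
theorem blockRank_le [M.IsPrime] (hM : IsPModular p M) {D : Subgroup G}
    (hD : IsDefectGroup p M B D) (hB : IsPBlock M B) {x : G} (hx1 : x ≠ 1)
    (hxp : ∃ k : ℕ, orderOf x = p ^ k)
    {C : Subgroup G} (hC : C = Subgroup.centralizer ({x} : Set G)) {b : Set (IrrCharacter C)}
    (hb : IsInducedBlock M C b B) :
    2 * blockRank p b ≤ Nat.card D ^ 2 / 4 + 1 := by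
  classical
  have := Fintype.ofFinite C
  have hfin : Finite (IrrCharacter C) := Cfsg.Agent.Characters.Core.finite_irr
  have hxC : x ∈ C := by
    rw [hC, Subgroup.mem_centralizer_singleton_iff]
  have h1 := SubCount.two_mul_blockRank_le (G := C) hM hb.1 (x := ⟨x, hxC⟩)
    (by
      obtain ⟨k, hk⟩ := hxp
      exact ⟨k, by rw [Subgroup.orderOf_mk, hk]⟩)
    (fun h => hx1 (congrArg Subtype.val h))
    (fun g => by
      apply Subtype.ext
      change x * (g : G) = (g : G) * x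
      have h1 : (g : G) ∈ Subgroup.centralizer ({x} : Set G) := hC ▸ g.2
      rw [Subgroup.mem_centralizer_singleton_iff] at h1
      exact h1.symm)
  obtain ⟨Db, hDb⟩ := Cfsg.Agent.H644.exists_isDefectGroup hM hb.1
  have h2 := S4676.result p M hM b hb.1 Db hDb
  have h3 : Nat.card b ≤ ∑ᶠ χ ∈ b, p ^ (2 * blockHeight p b (χ : C → ℂ)) := by
    have hbf : b.Finite := Set.toFinite b
    rw [finsum_mem_eq_finite_toFinset_sum _ hbf]
    have h4 : Nat.card b = ∑ χ ∈ hbf.toFinset, 1 := by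
      rw [Finset.sum_const, smul_eq_mul, mul_one, ← Nat.card_eq_card_finite_toFinset hbf]
    rw [h4]
    exact Finset.sum_le_sum fun χ _ => Nat.one_le_pow _ _ (Fact.out : p.Prime).pos
  have h4 : Nat.card Db ≤ Nat.card D := by
    rw [S0908.result p M hM b hb.1 Db hDb, S0908.result p M hM B hB D hD]
    exact Nat.pow_le_pow_right (Fact.out : p.Prime).pos
      (Cfsg.Agent.H658.defect_le_of_induced hM hb)
  have h5 : Nat.card Db ^ 2 / 4 ≤ Nat.card D ^ 2 / 4 :=
    Nat.div_le_div_right (Nat.pow_le_pow_left h4 2)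
  omega

/-- **Main theorem.** -/
theorem main (hM : IsPModular p M) (hB : IsPBlock M B) {D : Subgroup G}
    (hD : IsDefectGroup p M B D) (hD1 : D ≠ ⊥) (hl : blockRank p B = 1)
    (hk : Nat.card B ≤ 4) :
    IsNilpotentBlock p M B ∧ Nat.card D = Nat.card B ∧ (p = 2 ∨ p = 3) := by
  classical
  have hMp := isPrime_of_isPModular hM
  have := Fintype.ofFinite G
  have hp : p.Prime := Fact.out
  have hcard := card_defect_eq hM hB hD hl hk
  have hDp := S0908.result p M hM B hB D hD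
  have hD4 : Nat.card D ≤ 4 := by rw [hcard]; exact hk
  have ha0 : blockDefect p B ≠ 0 := by
    intro h
    rw [h, pow_zero] at hDp
    exact hD1 (Subgroup.card_eq_one.1 hDp)
  have hp4 : p ≤ 4 := by
    refine le_trans ?_ hD4
    rw [hDp]
    exact Nat.le_self_pow ha0 p
  have hp23 : p = 2 ∨ p = 3 := by
    have h2 := hp.two_le
    interval_cases p
    · left; rfl
    · right; rfl
    · exact absurd hp (by norm_num)
  refine ⟨?_, hcard, hp23⟩
  obtain ⟨P, e, hmax⟩ := Cfsg.Agent.H644.exists_maximal hM hB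
  have hPD := Cfsg.Agent.H644.isDefectGroup_of_isMaximalBrauerPair hM hmax
  have hPp := S0908.result p M hM B hB P hPD
  have hPB : Nat.card P = Nat.card B := by rw [hPp, ← hDp, hcard]
  have hP4 : Nat.card P ≤ 4 := by rw [hPB]; exact hk
  have ha2 : blockDefect p B ≤ 2 := by
    by_contra h
    have h1 : 2 ^ 3 ≤ p ^ blockDefect p B :=
      (Nat.pow_le_pow_left hp.two_le 3).trans (Nat.pow_le_pow_right hp.pos (by omega))
    rw [← hPp] at h1
    omega
  have hab : ∀ x ∈ P, ∀ y ∈ P, x * y = y * x := by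
    have hcomm : ∀ a b : P, a * b = b * a := by
      interval_cases h : blockDefect p B
      · exact absurd rfl ha0
      · rw [pow_one] at hPp
        have := isCyclic_of_prime_card hPp
        exact fun a b => (IsCyclic.commGroup (α := P)).mul_comm a b
      · exact fun a b => (IsPGroup.commGroupOfCardEqPrimeSq hPp).mul_comm a b
    intro x hx y hy
    exact congrArg Subtype.val (hcomm ⟨x, hx⟩ ⟨y, hy⟩)
  rw [S4687.result p M hM B P e hmax hab]
  intro t htN hts
  by_contra htC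
  -- a `p`-regular element
  set T := Cfsg.Agent.H644.pairStab M P e with hT
  have htT : t ∈ T :=
    (Cfsg.Agent.H644.mem_pairStab_iff_stabilizesBlock hM hmax.1.1.2).2 ⟨htN, hts⟩
  have hPC : P ≤ Subgroup.centralizer (P : Set G) := by
    intro x hx
    rw [Subgroup.mem_centralizer_iff]
    exact fun y hy => hab y hy x hx
  have hndvd := Cfsg.Agent.H641.not_dvd_relIndex hM hmax
  rw [sup_eq_right.2 hPC] at hndvd
  have hTN := Cfsg.Agent.H644.pairStab_le_normalizer (M := M) P e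
  have hCT := Cfsg.Agent.H644.centralizer_le_pairStab (M := M) P e
  have hnorm : ((Subgroup.centralizer (P : Set G)).subgroupOf T).Normal := by
    refine ⟨fun a ha t => ?_⟩
    rw [Subgroup.mem_subgroupOf] at ha ⊢
    rw [Subgroup.mem_centralizer_iff] at ha ⊢
    intro y hy
    have h1 : (t : G)⁻¹ * y * t ∈ P := (Subgroup.mem_normalizer_iff''.1 (hTN t.2) y).1 hy
    have h2 := ha _ h1
    push_cast
    calc y * ((t : G) * a * (t : G)⁻¹) = t * ((t : G)⁻¹ * y * t * a) * (t : G)⁻¹ := by group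
      _ = t * (a * ((t : G)⁻¹ * y * t)) * (t : G)⁻¹ := by rw [h2]
      _ = (t : G) * a * (t : G)⁻¹ * y := by group
  obtain ⟨a, hta⟩ := Cfsg.Agent.H651.exists_pow_isPRegular hp t
  have hnot := SmallTrans.pow_notMem hp hCT hndvd htT htC a
  set s := t ^ p ^ a with hs
  have hsT : s ∈ T := T.pow_mem htT _
  have hsN := hTN hsT
  obtain ⟨u, hu, hsu⟩ : ∃ u ∈ P, s * u * s⁻¹ ≠ u := by
    by_contra hcon
    apply hnot
    rw [Subgroup.mem_centralizer_iff]
    intro u hu
    by_contra h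
    apply hcon
    refine ⟨u, hu, fun h1 => h ?_⟩
    have : u = s * u * s⁻¹ := h1.symm
    conv_lhs => rw [this]
    group
  obtain ⟨h3, htrans⟩ := SmallTrans.exists_pow_conj hp hPp hP4 hsN hta hu hsu
  have htr : ∀ z ∈ P, z ≠ 1 → ∃ s : G, Cfsg.Agent.H649.conjIdx s ⟨P, e⟩ = ⟨P, e⟩ ∧
      s * z * s⁻¹ = u := by
    intro z hz hz1
    obtain ⟨i, hi⟩ := htrans z hz hz1
    refine ⟨(s ^ i)⁻¹, ?_, ?_⟩
    · rw [Cfsg.Agent.H649.conjIdx_eq_iff hmax.1.1.2,
        ← Cfsg.Agent.H644.mem_pairStab_iff_stabilizesBlock hM hmax.1.1.2]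
      exact T.inv_mem (T.pow_mem hsT i)
    · rw [hi]
      group
  rcases SubCount.card_le_add hM hB
    (fun x y hx1 hy1 hxp hyp b c hb hc => conj_of_trans hM hmax htr hx1 hy1 hxp hyp hb hc)
    (fun x hx1 hxp b b' hb hb' => unique_of_trans hM hmax htr hx1 hxp hb hb') with h | h
  · omega
  · obtain ⟨x, b, hx1, hxp, hb, hle⟩ := h
    have h4 := blockRank_le hM hPD hB hx1 hxp rfl hb
    rw [hl] at hle
    rw [← hPB] at hle
    have h5 : Nat.card P = 3 ∨ Nat.card P = 4 := by omega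
    rcases h5 with h5 | h5
    · rw [h5] at h4 hle
      norm_num at h4
      omega
    · rw [h5] at h4 hle
      norm_num at h4
      omega

end Pairs

end Cfsg.Agent.H645.RankOneFour
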